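import Mathlib.GroupTheory.NoncommCoprod
import Mathlib.Tactic
/-!
# S5917, END of type A (helper540): the group generated by two commuting elements of order three
-/

set_option autoImplicit false

namespace Cfsg.Agent.H540.L34

theorem card_nine {G : Type*} [Group G] {a b : G} (ha : a ^ 3 = 1) (hb : b ^ 3 = 1) (hab : Commute a b) (ha1 : a ≠ 1)
    (hne : ∀ i : ℕ, b ≠ a ^ i) : Nat.card ↥(Subgroup.zpowers a ⊔ Subgroup.zpowers b) = 9 := by
  have hb1 : b ≠ 1 := by
    have := hne 0
    rwa [pow_zero] at this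
  have oa : orderOf a = 3 := orderOf_eq_prime ha ha1
  have ob : orderOf b = 3 := orderOf_eq_prime hb hb1
  have fa : IsOfFinOrder a := isOfFinOrder_iff_pow_eq_one.2 ⟨3, by norm_num, ha⟩
  have fb : IsOfFinOrder b := isOfFinOrder_iff_pow_eq_one.2 ⟨3, by norm_num, hb⟩
  have hbn : b ∉ Subgroup.zpowers a := by
    intro h
    obtain ⟨i, hi⟩ := (Submonoid.mem_powers_iff _ _).1 (fa.mem_powers_iff_mem_zpowers.2 h)
    exact hne i hi.symm
  have hd : Disjoint (Subgroup.zpowers a) (Subgroup.zpowers b) := by
    rw [Subgroup.disjoint_def]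
    intro x hx1 hx2
    obtain ⟨n, hn⟩ := (Submonoid.mem_powers_iff _ _).1 (fb.mem_powers_iff_mem_zpowers.2 hx2)
    have h1 : x = b ^ (n % 3) := by
      rw [← hn, ← ob, pow_mod_orderOf]
    have h2 : n % 3 < 3 := Nat.mod_lt _ (by norm_num)
    interval_cases h3 : n % 3
    · rw [h1, pow_zero]
    · exfalso
      rw [h1, pow_one] at hx1
      exact hbn hx1
    · exfalso
      have h4 := Subgroup.mul_mem _ hx1 hx1
      rw [h1, ← pow_add] at h4
      have h5 : b ^ (2 + 2) = b := by
        have : b ^ (2 + 2) = b ^ 3 * b := by rw [← pow_succ]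
        rw [this, hb, one_mul]
      rw [h5] at h4
      exact hbn h4
  have hcomm : ∀ (x : ↥(Subgroup.zpowers a)) (y : ↥(Subgroup.zpowers b)),
      Commute ((Subgroup.zpowers a).subtype x) ((Subgroup.zpowers b).subtype y) := by
    rintro ⟨x, i, rfl⟩ ⟨y, j, rfl⟩
    exact (hab.zpow_left i).zpow_right j
  have hinj : Function.Injective
      (MonoidHom.noncommCoprod (Subgroup.zpowers a).subtype (Subgroup.zpowers b).subtype hcomm) := by
    rw [MonoidHom.noncommCoprod_injective]
    refine ⟨Subgroup.subtype_injective _, Subgroup.subtype_injective _, ?_⟩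
    rwa [Subgroup.range_subtype, Subgroup.range_subtype]
  have hr := MonoidHom.noncommCoprod_range (Subgroup.zpowers a).subtype (Subgroup.zpowers b).subtype hcomm
  rw [Subgroup.range_subtype, Subgroup.range_subtype] at hr
  rw [← hr, ← Nat.card_congr (MonoidHom.ofInjective hinj).toEquiv, Nat.card_prod, Nat.card_zpowers, Nat.card_zpowers, oa, ob]

end Cfsg.Agent.H540.L34
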