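import Mathlib.Data.Matrix.Mul
import Mathlib.Data.ZMod.Basic
import Mathlib.LinearAlgebra.Matrix.Trace
import Mathlib.Tactic
/-!
# S5917, END of type A (helper540): symmetric matrices of degree three over the field of order two
-/

set_option autoImplicit false
set_option maxRecDepth 100000

namespace Cfsg.Agent.H540.L34

open Matrix

abbrev M2 : Type := Matrix (Fin 3) (Fin 3) (ZMod 2)

def sm (a b c d e : ZMod 2) : M2 := !![a, b, c; b, a + e, d; c, d, e]

theorem eq_sm {A : M2} (h : Aᵀ = A) (ht : A.trace = 0) : A = sm (A 0 0) (A 0 1) (A 0 2) (A 1 2) (A 2 2) := by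
  have h1 : A 1 0 = A 0 1 := congrFun (congrFun h 0) 1
  have h2 : A 2 0 = A 0 2 := congrFun (congrFun h 0) 2
  have h3 : A 2 1 = A 1 2 := congrFun (congrFun h 1) 2
  have h4 : A 1 1 = A 0 0 + A 2 2 := by
    rw [Matrix.trace_fin_three] at ht
    generalize A 0 0 = a at *
    generalize A 1 1 = b at *
    generalize A 2 2 = c at *
    revert a b c
    decide
  ext i j
  fin_cases i <;> fin_cases j <;> simp [sm, h1, h2, h3, h4]

/-- not a pair of scalars -/
def NS (C D : M2) : Prop := ¬ (C = C 0 0 • (1 : M2) ∧ D = D 0 0 • (1 : M2))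

instance (C D : M2) : Decidable (NS C D) := by unfold NS; infer_instance

/-- `C + ω D` is unitary, it and its square are not scalar -/
def Gd (C D : M2) : Prop := Cᵀ = C ∧ Dᵀ = D ∧ C * D = D * C ∧ C * C + C * D + D * D = 1 ∧ NS C D ∧ NS (C * C + D * D) (D * D)

instance (C D : M2) : Decidable (Gd C D) := by unfold Gd; infer_instance

def PP : M2 := !![0, 1, 1; 1, 0, 1; 1, 1, 0]

theorem gd_P : Gd (1 + PP) PP := by decide +kernel

theorem gd_D : Gd !![0, 0, 0; 0, 1, 0; 0, 0, 1] !![1, 0, 0; 0, 0, 0; 0, 0, 0] := by decide +kernel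

theorem dec_F : ∀ a b c d e : ZMod 2, sm a b c d e * sm a b c d e * sm a b c d e = sm a b c d e + 1 →
    Gd (sm a b c d e * sm a b c d e) (sm a b c d e) := by decide +kernel

theorem dec_N : ∀ a b c d e : ZMod 2, sm a b c d e * sm a b c d e = 0 → PP * sm a b c d e = sm a b c d e * PP := by
  decide +kernel

theorem dec_kind : ∀ a b c d e : ZMod 2, sm a b c d e ≠ 0 →
    (sm a b c d e * sm a b c d e = 0 ∨ sm a b c d e * sm a b c d e = sm a b c d e) ∨
    (sm a b c d e * sm a b c d e ≠ 0 ∧ (sm a b c d e * sm a b c d e) * (sm a b c d e * sm a b c d e) = 0) ∨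
    (sm a b c d e + sm a b c d e * sm a b c d e ≠ 0 ∧
      ((sm a b c d e + sm a b c d e * sm a b c d e) * (sm a b c d e + sm a b c d e * sm a b c d e) = 0 ∨
      (sm a b c d e + sm a b c d e * sm a b c d e) * (sm a b c d e + sm a b c d e * sm a b c d e) =
        sm a b c d e + sm a b c d e * sm a b c d e)) ∨
    sm a b c d e * sm a b c d e * sm a b c d e = sm a b c d e + 1 := by decide +kernel

/-- the idempotents -/
theorem dec_I : ∀ a b c d e : ZMod 2, sm a b c d e ≠ 0 → sm a b c d e * sm a b c d e = sm a b c d e →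
    sm a b c d e = PP ∨ ((∃ x y z, sm a b c d e = Matrix.diagonal ![x, y, z]) ∧
      ((PP + sm a b c d e) * (PP + sm a b c d e) ≠ 0) ∧
      ((PP + sm a b c d e) * (PP + sm a b c d e)) * ((PP + sm a b c d e) * (PP + sm a b c d e)) = 0) := by decide +kernel

theorem dec_diag : ∀ x y z : ZMod 2, !![0, 0, 0; 0, 1, 0; 0, 0, 1] * Matrix.diagonal ![x, y, z] =
    (Matrix.diagonal ![x, y, z] : M2) * !![0, 0, 0; 0, 1, 0; 0, 0, 1] ∧
    !![1, 0, 0; 0, 0, 0; 0, 0, 0] * Matrix.diagonal ![x, y, z] =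
    (Matrix.diagonal ![x, y, z] : M2) * !![1, 0, 0; 0, 0, 0; 0, 0, 0] := by decide +kernel

def bF (A : M2) : Bool := decide (A * A * A = A + 1)

theorem dec_FF : ∀ a b c d e : ZMod 2, bF (sm a b c d e) = true → ∀ a' b' c' d' e' : ZMod 2,
    bF (sm a' b' c' d' e') = true →
    (sm a b c d e + sm a' b' c' d' e' = 0 ∨ bF (sm a b c d e + sm a' b' c' d' e') = true) →
    sm a b c d e * sm a' b' c' d' e' = sm a' b' c' d' e' * sm a b c d e := by
  decide +kernel

/-- **the cases** -/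
theorem exists_CD {W : Set M2} (hW : ∀ A ∈ W, Aᵀ = A ∧ A.trace = 0) (hadd : ∀ A ∈ W, ∀ B ∈ W, A + B ∈ W)
    (hsq : ∀ A ∈ W, A * A ∈ W) (hne : ∃ A ∈ W, A ≠ 0) :
    ∃ C D : M2, Gd C D ∧
      (((∃ A ∈ W, A ≠ 0 ∧ A * A = 0) ∧ ∀ A ∈ W, A ≠ 0 → A * A = 0 → C * A = A * C ∧ D * A = A * D) ∨
      ((∃ A ∈ W, A ≠ 0 ∧ A * A = A) ∧ ∀ A ∈ W, A ≠ 0 → A * A = A → C * A = A * C ∧ D * A = A * D) ∨
      (∀ A ∈ W, A ≠ 0 → C * A = A * C ∧ D * A = A * D)) := by
  by_cases hN : ∃ A ∈ W, A ≠ 0 ∧ A * A = 0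
  · refine ⟨1 + PP, PP, gd_P, Or.inl ⟨hN, fun A hA h0 h1 => ?_⟩⟩
    have h2 : PP * A = A * PP := by
      have e := eq_sm (hW A hA).1 (hW A hA).2
      rw [e] at h1 ⊢
      exact dec_N _ _ _ _ _ h1
    refine ⟨?_, h2⟩
    rw [add_mul, mul_add, one_mul, mul_one, h2]
  by_cases hI : ∃ A ∈ W, A ≠ 0 ∧ A * A = A
  · have key : ∀ A ∈ W, A ≠ 0 → A * A = A → A = PP ∨ (∃ x y z, A = Matrix.diagonal ![x, y, z]) ∧ PP ∉ W := by
      intro A hA h0 h1
      have e := eq_sm (hW A hA).1 (hW A hA).2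
      have hd := dec_I (A 0 0) (A 0 1) (A 0 2) (A 1 2) (A 2 2)
      rw [← e] at hd
      rcases hd h0 h1 with h | ⟨h, h2, h3⟩
      · exact Or.inl h
      · refine Or.inr ⟨h, fun hP => hN ⟨_, hsq _ (hadd _ hP _ hA), h2, h3⟩⟩
    by_cases hP : PP ∈ W
    · refine ⟨1 + PP, PP, gd_P, Or.inr (Or.inl ⟨hI, fun A hA h0 h1 => ?_⟩)⟩
      rcases key A hA h0 h1 with rfl | h
      · exact ⟨by rw [add_mul, mul_add, one_mul, mul_one], rfl⟩
      · exact absurd hP h.2
    · refine ⟨_, _, gd_D, Or.inr (Or.inl ⟨hI, fun A hA h0 h1 => ?_⟩)⟩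
      rcases key A hA h0 h1 with rfl | ⟨⟨x, y, z, rfl⟩, -⟩
      · exact absurd hA hP
      · exact dec_diag x y z
  · have key : ∀ A ∈ W, A ≠ 0 → A * A * A = A + 1 := by
      intro A hA h0
      have e := eq_sm (hW A hA).1 (hW A hA).2
      have hd := dec_kind (A 0 0) (A 0 1) (A 0 2) (A 1 2) (A 2 2)
      rw [← e] at hd
      rcases hd h0 with (h | h) | ⟨h1, h2⟩ | ⟨h1, h2 | h2⟩ | h
      · exact absurd ⟨A, hA, h0, h⟩ hN
      · exact absurd ⟨A, hA, h0, h⟩ hI
      · exact absurd ⟨_, hsq A hA, h1, h2⟩ hN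
      · exact absurd ⟨_, hadd _ hA _ (hsq A hA), h1, h2⟩ hN
      · exact absurd ⟨_, hadd _ hA _ (hsq A hA), h1, h2⟩ hI
      · exact h
    obtain ⟨A, hA, h0⟩ := hne
    have hmem : ∀ B ∈ W, B ≠ 0 → bF B = true := by
      intro B hB hB0
      unfold bF
      rw [decide_eq_true_eq]
      exact key B hB hB0
    have hgd : Gd (A * A) A := by
      have e := eq_sm (hW A hA).1 (hW A hA).2
      have hd := dec_F (A 0 0) (A 0 1) (A 0 2) (A 1 2) (A 2 2)
      rw [← e] at hd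
      exact hd (key A hA h0)
    refine ⟨A * A, A, hgd, Or.inr (Or.inr fun B hB hB0 => ?_)⟩
    have hAB : A * B = B * A := by
      have eA := eq_sm (hW A hA).1 (hW A hA).2
      have eB := eq_sm (hW B hB).1 (hW B hB).2
      have hd := dec_FF (A 0 0) (A 0 1) (A 0 2) (A 1 2) (A 2 2)
      rw [← eA] at hd
      have hd' := hd (hmem A hA h0) (B 0 0) (B 0 1) (B 0 2) (B 1 2) (B 2 2)
      rw [← eB] at hd'
      refine hd' (hmem B hB hB0) ?_
      by_cases h : A + B = 0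
      · exact Or.inl h
      · right
        unfold bF
        rw [decide_eq_true_eq]
        exact key _ (hadd _ hA _ hB) h
    refine ⟨?_, hAB⟩
    rw [mul_assoc, hAB, ← mul_assoc, hAB, mul_assoc]

end Cfsg.Agent.H540.L34
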